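import Mathlib
import Cfsg.Agent.DS.Ord.Chief

/-!
# Order recursion for derived lengths: two more rules for imprimitive groups (helper57)

`I3`: the kernel of the action on the blocks has order `|G| / (t u)`; `I2`: a derived group lies in `O₂(G)` and in
the kernel.
-/

set_option autoImplicit false
set_option linter.style.haveILetI false
set_option linter.unusedSectionVars false

namespace Cfsg.Agent.DS.Ord

open Subgroup Cfsg.Agent.H511.Wt
open scoped Pointwise commutatorElement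

/-- a normal subgroup with a nonzero fixed vector acts trivially -/
theorem triv_of_fix {G V : Type*} [Group G] [AddCommGroup V] [DistribMulAction G V] (hirr : Irr G V)
    (R : Subgroup G) [hR : R.Normal] {v : V} (hv : v ≠ 0) (h : ∀ g ∈ R, g • v = v) : ∀ g ∈ R, ∀ x : V, g • x = x := by
  let U : AddSubgroup V :=
    { carrier := {x | ∀ g ∈ R, g • x = x}
      add_mem' := fun {a b} ha hb g hg => by rw [smul_add, ha g hg, hb g hg]
      zero_mem' := fun g _ => smul_zero g
      neg_mem' := fun {a} ha g hg => by rw [smul_neg, ha g hg] }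
  have hU : ∀ h : G, ∀ x ∈ U, h • x ∈ U := by
    intro h x hx g hg
    have h1 : h⁻¹ * g * h⁻¹⁻¹ ∈ R := hR.conj_mem g hg h⁻¹
    have h2 := hx _ h1
    rw [inv_inv, mul_smul, mul_smul, inv_smul_eq_iff] at h2
    exact h2
  rcases hirr.irr U hU with h1 | h1
  · exfalso
    have h2 : v ∈ U := h
    rw [h1, AddSubgroup.mem_bot] at h2
    exact hv h2
  · intro g hg x
    have h2 : x ∈ U := by rw [h1]; exact AddSubgroup.mem_top x
    exact h2 g hg

theorem smul_zero_of_irr {G V : Type*} [Group G] [AddCommGroup V] [Finite V] [DistribMulAction G V]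
    (hirr : Irr G V) {q j : ℕ} (hq : q.Prime) (hc : Nat.card V = q ^ j) (x : V) : q • x = 0 := by
  obtain ⟨p, hp, hpx⟩ := hirr.exists_prime
  have hnt := hirr.nt
  obtain ⟨y, hy⟩ := exists_ne (0 : V)
  haveI : Fact p.Prime := ⟨hp⟩
  have h1 : addOrderOf y = p := addOrderOf_eq_prime (hpx y) hy
  have h2 : p ∣ q ^ j := by
    rw [← hc, ← h1]
    exact addOrderOf_dvd_natCard y
  have h3 : p = q := (Nat.prime_dvd_prime_iff_eq hp hq).1 (hp.dvd_of_dvd_pow h2)
  rw [← h3]
  exact hpx x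

/-- a normal subgroup with a small invariant subgroup -/
theorem dl_normal {G V : Type} [Group G] [Finite G] [Group.IsSolvable G] [AddCommGroup V] [Finite V]
    [DistribMulAction G V] (hirr : Irr G V) (K : Subgroup G) [K.Normal] (W : AddSubgroup V) (hW0 : W ≠ ⊥)
    (hW : ∀ k ∈ K, ∀ w ∈ W, k • w ∈ W) {n q i N a : ℕ} (hq : q.Prime) (hc : Nat.card W = q ^ i)
    (h : LinLt n q i N a) (hn : Nat.card K < n) (hN : Nat.card K ∣ N) : ∀ g ∈ dser K a, ∀ x : V, g • x = x := by
  obtain ⟨U, hU⟩ := (Set.toFinite {U : AddSubgroup V | U ≠ ⊥ ∧ U ≤ W ∧ ∀ k ∈ K, ∀ w ∈ U, k • w ∈ U}).exists_minimal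
    ⟨W, hW0, le_rfl, hW⟩
  obtain ⟨hU0, hUW, hUK⟩ := hU.prop
  letI := resAct K U hUK
  have hi : Irr K U := by
    refine ⟨(AddSubgroup.nontrivial_iff_ne_bot U).2 hU0, fun U' hU' => ?_⟩
    by_cases h0 : U' = ⊥
    · exact Or.inl h0
    right
    have h1 : U ≤ U'.map U.subtype := hU.le_of_le
      ⟨fun h1 => h0 ((AddSubgroup.map_eq_bot_iff_of_injective U' U.subtype_injective).1 h1),
        (AddSubgroup.map_subtype_le U').trans hUW, by
        rintro k hk _ ⟨w, hw, rfl⟩
        exact ⟨_, hU' ⟨k, hk⟩ w hw, rfl⟩⟩ (AddSubgroup.map_subtype_le U')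
    rw [eq_top_iff]
    intro x _
    obtain ⟨y, hy, hyx⟩ := h1 x.2
    rwa [← Subtype.ext hyx]
  obtain ⟨l, hl, hlc⟩ := (Nat.dvd_prime_pow hq).1 (hc ▸ AddSubgroup.card_dvd_of_le hUW)
  have hd : Nat.card (Im K U) ∣ Nat.card K := Subgroup.card_dvd_of_surjective _ toIm_surjective
  have h1 := h K U hi l hl hlc ((Nat.le_of_dvd Nat.card_pos hd).trans_lt hn) (hd.trans hN)
  obtain ⟨⟨v, hv⟩, hv0⟩ := (AddSubgroup.ne_bot_iff_exists_ne_zero).1 hU0
  refine triv_of_fix hirr (dser K a) (fun h0 => hv0 (Subtype.ext h0)) fun g hg => ?_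
  rw [dser_eq_map, ← dser_top] at hg
  obtain ⟨k, hk, rfl⟩ := hg
  exact congrArg Subtype.val (h1 k hk ⟨v, hv⟩)

/-- a normal `p`-subgroup with a small invariant subgroup -/
theorem dl_pgroup {G V : Type} [Group G] [Finite G] [AddCommGroup V] [Finite V]
    [DistribMulAction G V] (hirr : Irr G V) (K : Subgroup G) [K.Normal] (W : AddSubgroup V) (hW0 : W ≠ ⊥)
    (hW : ∀ k ∈ K, ∀ w ∈ W, k • w ∈ W) {p q i s : ℕ} (hp : p.Prime) (hq : q.Prime) (hqx : ∀ x : V, q • x = 0)
    (hc : Nat.card W = q ^ i) (hK : IsPGroup p K) (hs : ¬ p ^ (2 ^ s + s) ∣ glN q i) :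
    ∀ g ∈ dser K s, ∀ x : V, g • x = x := by
  haveI : Fact p.Prime := ⟨hp⟩
  letI := resAct K W hW
  have hd : Nat.card (Im K W) ∣ glN q i := card_dvd_gl range_faithful hq (fun x => Subtype.ext (hqx x)) hc
  have hP : IsPGroup p (⊤ : Subgroup (Im K W)) := (hK.of_surjective _ toIm_surjective).to_subgroup ⊤
  have h1 : dser (⊤ : Subgroup (Im K W)) s = ⊥ := by
    by_contra h0
    have h2 := hall_amb hP h0 (Nat.zero_le s)
    obtain ⟨a, ha⟩ := IsPGroup.iff_card.1 hP
    rw [dser_zero, ha, ← pow_add] at h2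
    have h3 := (Nat.pow_le_pow_iff_right hp.one_lt).1 h2
    rw [card_top] at ha
    exact hs ((pow_dvd_pow p (by omega)).trans (ha ▸ hd))
  have h2 : DL K W s := DL.of_range fun g hg x => by
    rw [h1, mem_bot] at hg
    rw [hg, one_smul]
  obtain ⟨⟨v, hv⟩, hv0⟩ := (AddSubgroup.ne_bot_iff_exists_ne_zero).1 hW0
  refine triv_of_fix hirr (dser K s) (fun h0 => hv0 (Subtype.ext h0)) fun g hg => ?_
  rw [dser_eq_map, ← dser_top] at hg
  obtain ⟨k, hk, rfl⟩ := hg
  exact congrArg Subtype.val (h2 k hk ⟨v, hv⟩)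

/-- the order of the kernel on the blocks -/
theorem card_core_dvd {G V : Type} [Group G] [Finite G] [AddCommGroup V] [Finite V] [DistribMulAction G V]
    (hf : ∀ g : G, (∀ x : V, g • x = x) → g = 1) {M : Subgroup G} {W : G ⧸ M → AddSubgroup V} (D : Imp M W)
    {q i : ℕ} (hq : q.Prime) (hqx : ∀ x : V, q • x = 0) (hc : Nat.card (W ((1 : G) : G ⧸ M)) = q ^ i)
    (hinv : ∀ l : G ⧸ M, ∀ k ∈ M.normalCore, ∀ w ∈ W l, k • w ∈ W l) :
    Nat.card M.normalCore ∣ glN q i ^ M.index := by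
  classical
  letI : Fintype (G ⧸ M) := Fintype.ofFinite _
  letI : ∀ l, DistribMulAction M.normalCore (W l) := fun l => resAct M.normalCore (W l) (hinv l)
  have h1 : Function.Injective (MonoidHom.pi fun l => toIm M.normalCore (W l)) := by
    rw [injective_iff_map_eq_one]
    intro k hk
    refine Subtype.ext (hf _ (D.trivial_of fun l x hx => ?_))
    have h2 : toIm M.normalCore (W l) k = 1 := congrFun hk l
    have h3 := toIm_smul k (⟨x, hx⟩ : W l)
    rw [h2, one_smul] at h3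
    exact (congrArg Subtype.val h3).symm
  refine (card_dvd_of_injective _ h1).trans ?_
  rw [Nat.card_pi, index, Nat.card_eq_fintype_card (α := G ⧸ M), ← Finset.card_univ, ← Finset.prod_const]
  exact Finset.prod_dvd_prod_of_dvd _ _ fun l _ =>
    card_dvd_gl range_faithful hq (fun x => Subtype.ext (hqx x)) ((D.card_W l).trans hc)

/-- the three rules for an imprimitive group -/
def ImpRule (G : Type) [Group G] (q j N e t r c : ℕ) : Prop :=
  (∃ a b, b + 1 + a ≤ e ∧ LinLt (Nat.card G) q (j / t) (N / t) a ∧ LinLt (Nat.card G) r c (N / t) b) ∨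
  (∀ u, u ∣ glN r c → t * u ∣ N →
    ∃ a b, b + 1 + a ≤ e ∧ LinLt (Nat.card G) q (j / t) (N / (t * u)) a ∧ LinLt (Nat.card G) r c u b) ∨
  (∃ b d s, b + 1 + s ≤ e ∧ d + s ≤ e ∧ LinLt (Nat.card G) r c (N / t) b ∧ ¬ 2 ^ (2 ^ s + s) ∣ glN q (j / t) ∧
    (Nat.card G ∣ glN q (j / t) ^ t * t * glN r c →
      ∃ O : Subgroup G, O.Normal ∧ IsPGroup 2 O ∧ dser (⊤ : Subgroup G) d ≤ O))

theorem imp_dl2 (G V : Type) [Group G] [Finite G] [Group.IsSolvable G] [AddCommGroup V] [Finite V]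
    [DistribMulAction G V] (hirr : Irr G V) (hf : ∀ g : G, (∀ x : V, g • x = x) → g = 1) {q j N e : ℕ}
    (hq : q.Prime) (hc : Nat.card V = q ^ j) (hN : Nat.card G ∣ N) (h : ImpP G V)
    (himp : ∀ t r c, r.Prime → t = r ^ c → 2 ≤ t → t ∣ j → t ∣ N → ImpRule G q j N e t r c) : DL G V e := by
  have hnt := hirr.nt
  obtain ⟨M, W, hM, h1, h2, h3⟩ := h
  have D : Imp M W := ⟨h1, h2, h3⟩
  letI := resAct M (W ((1 : G) : _ ⧸ M)) D.res_mem
  have h4 := D.irr_res hirr
  have h5 : M.index ≠ 0 := index_ne_zero_of_finite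
  have h6 : M.index ≠ 1 := by
    rw [Ne, index_eq_one]
    exact hM.1
  have hcV := D.card_V
  rw [hc] at hcV
  obtain ⟨i, hi, hij⟩ := pow_eq_prime_pow hq h5 hcV.symm
  have hji : j / M.index = i := by rw [← hij, Nat.mul_div_cancel _ (by omega)]
  obtain ⟨T, hT, t1, t2, t3, t4, t5⟩ := coatom_struct hM
  obtain ⟨X, j1, j2, j3, hXirr, hXc, hX⟩ := exists_mod M.normalCore T t1 t2 t3
  obtain ⟨r, c, hr, _, hrc⟩ := (isPrimePow_nat_iff _).1 hXirr.isPrimePow
  have hXc' := hrc.symm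
  rw [hXc, t4] at hrc
  have htN : M.index ∣ N := M.index_dvd_card.trans hN
  have hTi : Nat.card (Im G X) = T.index := by rw [card_im hX, t5]
  have top : ∀ u b, T.index ∣ u → LinLt (Nat.card G) r c u b → dser (⊤ : Subgroup G) (b + 1) ≤ M.normalCore := by
    intro u b hu hb
    have hb' := hb G X hXirr c le_rfl hXc' (by rw [hTi]; exact index_lt_card (ne_bot_of_gt t1)) (hTi ▸ hu)
    rw [DL.iff_le hX, t5] at hb'
    exact dser_add_le (b := 1) hb' t3
  have hTN : T.index ∣ N / M.index := by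
    refine dvd_div_of (by omega) (index_mul_dvd ?_ hN)
    rw [← t4]
    exact relIndex_dvd_card _ _
  have hW0 : W ((1 : G) : _ ⧸ M) ≠ ⊥ := (AddSubgroup.nontrivial_iff_ne_bot _).1 h4.nt
  have hinv : ∀ l : G ⧸ M, ∀ k ∈ M.normalCore, ∀ w ∈ W l, k • w ∈ W l := by
    intro l k hk w hw
    have h7 : k ∈ (MulAction.toPermHom G (G ⧸ M)).ker := by rwa [← normalCore_eq_ker]
    have h8 : k • l = l := congrArg (fun e : Equiv.Perm (G ⧸ M) => e l) (MonoidHom.mem_ker.1 h7)
    have h9 := D.smul_mem k hw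
    rwa [h8] at h9
  have hKc : Nat.card M.normalCore * (M.index * T.index) = Nat.card G := by
    rw [← t4, ← mul_assoc, card_mul_relIndex t1.le, T.card_mul_index]
  have hu : T.index ∣ glN r c := hTi ▸ card_im_dvd_gl hXirr hr hXc'
  have hqx := smul_zero_of_irr hirr hq hc
  rcases himp M.index r c hr hrc.symm (by omega) ⟨i, by rw [← hij, mul_comm]⟩ htN with
    ⟨a, b, hab, ha, hb⟩ | h | ⟨b, d, s, h7, h8, hb, hs, hO⟩
  · have hMc : Nat.card M * M.index = Nat.card G := M.card_mul_index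
    have hMp : 0 < Nat.card M := Nat.card_pos
    have him : Nat.card (Im M (W ((1 : G) : _ ⧸ M))) ∣ Nat.card M :=
      Subgroup.card_dvd_of_surjective _ toIm_surjective
    have ha' := ha M _ h4 i hji.ge hi
      (lt_of_le_of_lt (Nat.le_of_dvd hMp him) (by rw [← hMc]; exact (Nat.lt_mul_iff_one_lt_right hMp).2 (by omega)))
      (him.trans (dvd_div_of (by omega) (by rw [hMc]; exact hN)))
    exact (D.dl ha' (top _ b hTN hb)).mono hab
  · have hTp : 0 < T.index := Nat.pos_of_ne_zero index_ne_zero_of_finite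
    obtain ⟨a, b, hab, ha, hb⟩ := h T.index hu ((Dvd.intro_left _ hKc).trans hN)
    rw [hji] at ha
    have h7 := dl_normal hirr M.normalCore _ hW0 (hinv _) hq hi ha (by
      rw [← hKc]
      refine (Nat.lt_mul_iff_one_lt_right Nat.card_pos).2 ?_
      exact lt_of_lt_of_le (show 1 < M.index by omega) (Nat.le_mul_of_pos_right _ hTp))
      (dvd_div_of (Nat.mul_pos (by omega) hTp) (hKc ▸ hN))
    exact DL.mono (fun g hg => h7 g (dser_add_le (top _ b dvd_rfl hb) le_rfl hg)) hab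
  · rw [hji] at hs hO
    obtain ⟨O, hOn, hO2, hOd⟩ := hO (by
      rw [← hKc, mul_assoc]
      exact Nat.mul_dvd_mul (card_core_dvd hf D hq hqx hi hinv) (Nat.mul_dvd_mul_left _ hu))
    have h9 := dl_pgroup hirr (O ⊓ M.normalCore) _ hW0 (fun k hk => hinv _ k hk.2) Nat.prime_two hq hqx hi
      (hO2.to_le inf_le_left) hs
    refine DL.mono (d := max (b + 1) d + s) (fun g hg => h9 g (dser_add_le (le_inf ?_ ?_) le_rfl hg)) (by omega)
    · exact (dser_anti _ (le_max_right _ _)).trans hOd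
    · exact (dser_anti _ (le_max_left _ _)).trans (top _ b hTN hb)

/-- **Clifford theory with orders**, with the three rules. -/
theorem clif2 (G V : Type) [Group G] [Finite G] [Group.IsSolvable G] [AddCommGroup V] [Finite V]
    [DistribMulAction G V] (hirr : Irr G V) (hf : ∀ g : G, (∀ x : V, g • x = x) → g = 1) {q j N e : ℕ}
    (hq : q.Prime) (hc : Nat.card V = q ^ j) (hN : Nat.card G ∣ N) (h2 : 2 ≤ e)
    (himp : ∀ t r c, r.Prime → t = r ^ c → 2 ≤ t → t ∣ j → t ∣ N → ImpRule G q j N e t r c)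
    (hqp : ∀ f m r i, r.Prime → f * m = j → r ∣ m → r ∣ q ^ f - 1 → 1 ≤ i → r ^ i ≤ m → r ^ (2 * i + 1) ∣ N →
      3 ≤ e ∧ LinLt (Nat.card G) r (2 * i) (N / r ^ (2 * i + 1)) (e - 2)) : DL G V e := by
  have hnt := hirr.nt
  rcases exists_qp G V hirr hf with h | ⟨K, i1, i2, i3, ⟨S⟩⟩
  · exact imp_dl2 G V hirr hf hq hc hN h himp
  · have hqm : Nat.card K ^ Module.finrank K V = q ^ j := by rw [← hc]; exact QP.card_V_eq.symm
    have hm0 : 1 ≤ Module.finrank K V := Module.finrank_pos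
    obtain ⟨f, hKf, hfm⟩ := pow_eq_prime_pow hq (by omega) hqm
    have key : ∀ N' ∈ S.Mn, 3 ≤ e ∧ dser (⊤ : Subgroup G) (e - 2) ≤ cenMod S.U N' := by
      intro N' hN'
      obtain ⟨X, j1, j2, j3, hXirr, hXc, hX⟩ := S.mn_mod hN'
      obtain ⟨r, c, hr, hc0, hrc⟩ := (isPrimePow_nat_iff _).1 hXirr.isPrimePow
      obtain ⟨g, hg⟩ := S.mn_sq hN'
      obtain ⟨i, rfl, hic⟩ := pow_eq_prime_pow (w := g) (k := 2) (a := c) hr (by norm_num) (by rw [← hg, hrc, hXc])
      have hrel := S.relIndex_mn hN'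
      have hrs : r ^ c ∣ S.s := by rw [hrc, hXc]; exact hrel.1
      obtain ⟨p1, p2⟩ := S.prime_dvd hr ((dvd_pow_self r (by omega)).trans hrs)
      have hle : r ^ i ≤ Module.finrank K V := by
        have h7 : (r ^ i) ^ 2 ≤ Module.finrank K V ^ 2 := by
          rw [← hg]
          exact (Nat.le_of_dvd S.s_pos hrel.1).trans S.s_le'
        exact (Nat.pow_le_pow_iff_left (by norm_num)).1 h7
      have hE : r ^ (2 * i + 1) ∣ Nat.card S.E := by
        have h7 := card_mul_index (S.U.subgroupOf S.E)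
        rw [Nat.card_congr (subgroupOfEquivOfLe S.U_le_E).toEquiv] at h7
        rw [← h7, pow_succ', mul_comm 2 i, hic]
        exact Nat.mul_dvd_mul p1 hrs
      have hEle : S.E ≤ cenMod S.U N' :=
        le_cenMod_iff.2 ((commutator_mono le_rfl (S.Mn_le_E hN')).trans S.E_comm)
      have hE' : r ^ (2 * i + 1) ∣ Nat.card (cenMod S.U N') := hE.trans (card_dvd_of_le hEle)
      have hd := index_mul_dvd hE' hN
      obtain ⟨h3, hL⟩ := hqp f (Module.finrank K V) r i hr hfm p2 (by rw [← hKf]; exact p1.trans S.card_U_dvd)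
        (by omega) hle ((dvd_mul_left _ _).trans hd)
      refine ⟨h3, (DL.iff_le hX).1 (hL G X hXirr c (by omega) hrc.symm ?_ ?_)⟩
      · rw [card_im hX]
        exact index_lt_card (ne_bot_of_gt (lt_of_lt_of_le hN'.2.1 ((S.Mn_le_E hN').trans hEle)))
      · rw [card_im hX]
        exact dvd_div_of (pow_pos hr.pos _) hd
    have fin : ∀ d, dser (⊤ : Subgroup G) d = ⊥ → d ≤ e → DL G V e := by
      intro d h1 hd g hg x
      have h3 := dser_anti (⊤ : Subgroup G) hd hg
      rw [h1, mem_bot] at h3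
      rw [h3, one_smul]
    by_cases h3 : 3 ≤ e
    · exact fin _ (S.dser_top_eq_bot (S.dser_le_E (k := e - 2) (by omega) fun N' hN' => (key N' hN').2)) (by omega)
    · refine fin 2 (S.dser_two_of_s_one ?_) h2
      rw [QP.s, relIndex_eq_one]
      exact S.E_le le_rfl fun N' hN' => absurd (key N' hN').1 h3

end Cfsg.Agent.DS.Ord
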