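import Mathlib
import Cfsg.Agent.DS.Ord.Calc
import Cfsg.Agent.DS.Ord.Irr2

/-!
# Order recursion for derived lengths: the checker with the rules `I2`, `I3` (helper57)
-/

set_option autoImplicit false
set_option linter.style.haveILetI false
set_option linter.unusedSectionVars false

namespace Cfsg.Agent.DS.Ord

open Subgroup Cfsg.Agent.H511.Wt

/-- the imprimitive step -/
def impChk (T : LTab) (S : STab) (q j N e r c t : ℕ) : Bool :=
  force (lk T r c (N / t) + 1) fun b =>
    Nat.ble (b + lk T q (j / t) (N / t)) e ||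
      (force (glN r c) fun g => Nat.blt 0 g && Nat.blt g 200 &&
        allLt (fun u => !(dv u g) || !(dv (t * u) N) ||
          Nat.ble (lk T r c u + 1 + lk T q (j / t) (N / (t * u))) e) (g + 1)) ||
      force (Nat.gcd N (glN q (j / t) ^ t * t * glN r c)) fun N1 => S.any fun y =>
        Nat.beq y.1 2 && dv N1 y.2.1 && Nat.ble (max b y.2.2) e &&
          force (min (e - max b y.2.2) 5) fun s => !(dv (2 ^ (2 ^ s + s)) (glN q (j / t)))

/-- the Clifford step -/
def clifChk2 (T : LTab) (S : STab) (q j N e : ℕ) : Bool :=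
  Nat.ble 2 e && Nat.blt j 100 && PR.all fun r => !(dv r j) ||
    (allLt (fun c => force (r ^ (c + 1)) fun t => !(dv t j) || !(dv t N) || impChk T S q j N e r (c + 1) t) 7 &&
      allLt (fun f => !(dv (f + 1) j) || force (j / (f + 1)) fun m => !(dv r m) || !(dv r (q ^ (f + 1) - 1)) ||
        allLt (fun i => Nat.blt m (r ^ (i + 1)) || !(dv (r ^ (2 * (i + 1) + 1)) N) ||
          (Nat.ble 3 e && Nat.ble (lk T r (2 * (i + 1)) (N / r ^ (2 * (i + 1) + 1)) + 2) e)) 7) j)

/-- one entry of the first table -/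
def linChk2 (T : LTab) (S : STab) (q k N e : ℕ) : Bool :=
  Nat.blt e 1000 && allLt (fun j => (Nat.beq j 0 && Nat.ble 1 e) || force (Nat.gcd N (glN q (j + 1))) fun N1 =>
    solLk S q N1 e || clifChk2 T S q (j + 1) N1 e) k

/-- all entries of the first table -/
def chkL2 (T : LTab) (S : STab) : Bool := T.all fun x => x.2.all fun y => linChk2 T S x.1 y.1 y.2.1 y.2.2

theorem exists_core_dser {T : LTab} (G : Type) [Group G] [Finite G] [Group.IsSolvable G] (hT : TabLt (Nat.card G) T)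
    {p N d : ℕ} (hp : p.Prime) (hN : Nat.card G ∣ N) (h : solChk (okT T) p N d = true) :
    ∃ O : Subgroup G, O.Normal ∧ IsPGroup p O ∧ dser (⊤ : Subgroup G) d ≤ O := by
  haveI : Fact p.Prime := ⟨hp⟩
  obtain ⟨O, hO⟩ := (Set.toFinite {O : Subgroup G | O.Normal ∧ IsPGroup p O}).exists_maximal
    ⟨⊥, inferInstance, IsPGroup.of_bot⟩
  obtain ⟨hOn, hOp⟩ := hO.prop
  have hs := QuotientGroup.mk'_surjective O
  have hd : Nat.card (G ⧸ O) ∣ Nat.card G := card_quotient_dvd_card O
  have h1 := sol_of_chk (G ⧸ O)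
    (fun q k N e hq hok => chB_of_lin (hT.ok hq hok) (Nat.le_of_dvd Nat.card_pos hd)) (p := p) (by
      intro M hM hMp
      have h2 : M.comap (QuotientGroup.mk' O) ≤ O :=
        hO.le_of_ge ⟨inferInstance, hMp.comap_of_ker_isPGroup _ (by rwa [QuotientGroup.ker_mk'])⟩ (by
          conv_lhs => rw [← QuotientGroup.ker_mk' O]
          exact ker_le_comap _ M)
      rw [← map_comap_eq_self_of_surjective hs M, Subgroup.map_eq_bot_iff, QuotientGroup.ker_mk']
      exact h2) (hd.trans hN) h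
  refine ⟨O, hOn, hOp, ?_⟩
  rw [← dser_top, ← (QuotientGroup.mk' O).range_eq_top_of_surjective hs, MonoidHom.range_eq_map, ← map_dser,
    Subgroup.map_eq_bot_iff, QuotientGroup.ker_mk'] at h1
  exact h1

theorem impRule_of_chk {T : LTab} {S : STab} (hS : chkS T S = true) (G : Type) [Group G] [Finite G]
    [Group.IsSolvable G] (hT : TabLt (Nat.card G) T) {q j N e r c t : ℕ} (hq : q.Prime) (hr : r.Prime)
    (hN : Nat.card G ∣ N) (he : e < 1000) (h : impChk T S q j N e r c t = true) : ImpRule G q j N e t r c := by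
  rw [impChk, force_eq, Bool.or_eq_true, Bool.or_eq_true, Nat.ble_eq, force_eq, force_eq] at h
  rcases h with (h | h) | h
  · exact Or.inl ⟨_, _, h, hT.lk hq (by omega), hT.lk hr (by omega)⟩
  · refine Or.inr (Or.inl fun u hu htu => ?_)
    rw [Bool.and_eq_true, Bool.and_eq_true, Nat.blt_eq, Nat.blt_eq] at h
    have h1 := allLt_spec h.2 (Nat.lt_succ_of_le (Nat.le_of_dvd h.1.1 hu))
    rw [Bool.or_eq_true, Bool.or_eq_true, Bool.not_eq_true', Bool.not_eq_true', ← Bool.not_eq_true,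
      ← Bool.not_eq_true, dv_iff, dv_iff, Nat.ble_eq] at h1
    have h2 := h1.resolve_left (not_or.2 ⟨not_not.2 hu, not_not.2 htu⟩)
    exact ⟨_, _, h2, hT.lk hq (by omega), hT.lk hr (by omega)⟩
  · rw [List.any_eq_true] at h
    obtain ⟨y, hy, h1⟩ := h
    rw [Bool.and_eq_true, Bool.and_eq_true, Bool.and_eq_true, Nat.beq_eq, dv_iff, Nat.ble_eq, force_eq,
      Bool.not_eq_true', ← Bool.not_eq_true, dv_iff] at h1
    obtain ⟨⟨⟨h2, h3⟩, h4⟩, h5⟩ := h1
    refine Or.inr (Or.inr ⟨_, y.2.2, _, ?_, ?_, hT.lk hr (by omega), h5, fun h6 => ?_⟩)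
    · omega
    · omega
    · rw [chkS, List.all_eq_true] at hS
      exact exists_core_dser G hT Nat.prime_two ((Nat.dvd_gcd hN h6).trans h3) (h2 ▸ hS y hy)

theorem clif_of_chk2 {T : LTab} {S : STab} (hS : chkS T S = true) (G V : Type) [Group G] [Finite G]
    [Group.IsSolvable G] [AddCommGroup V] [Finite V]
    [DistribMulAction G V] (hT : TabLt (Nat.card G) T) (hirr : Irr G V) (hf : ∀ g : G, (∀ x : V, g • x = x) → g = 1)
    {q j N e : ℕ} (hq : q.Prime) (hc : Nat.card V = q ^ j) (hN : Nat.card G ∣ N) (he : e < 1000)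
    (h : clifChk2 T S q j N e = true) : DL G V e := by
  rw [clifChk2, Bool.and_eq_true, Bool.and_eq_true, Nat.ble_eq, Nat.blt_eq, List.all_eq_true] at h
  obtain ⟨⟨h1, h2⟩, h3⟩ := h
  have hj := exp_pos hirr hc
  have h4 : ∀ r, r.Prime → r ∣ j → _ := fun r hr hrj => by
    have h5 := h3 r (mem_PR hr (lt_of_le_of_lt (Nat.le_of_dvd hj hrj) h2))
    rw [Bool.or_eq_true, Bool.not_eq_true', ← Bool.not_eq_true, dv_iff, Bool.and_eq_true] at h5
    exact h5.resolve_left (not_not.2 hrj)
  refine clif2 G V hirr hf hq hc hN h1 ?_ ?_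
  · rintro t r c hr rfl ht htj htN
    obtain ⟨c, rfl⟩ : ∃ c', c = c' + 1 := by
      refine Nat.exists_eq_succ_of_ne_zero ?_
      rintro rfl
      simp at ht
    have h5 := allLt_spec (h4 r hr ((dvd_pow_self r (by omega)).trans htj)).1
      (show c < 7 by have := lt_seven hr (Nat.le_of_dvd hj htj) h2; omega)
    rw [force_eq, Bool.or_eq_true, Bool.or_eq_true, Bool.not_eq_true', Bool.not_eq_true', ← Bool.not_eq_true,
      ← Bool.not_eq_true, dv_iff, dv_iff] at h5
    exact impRule_of_chk hS G hT hq hr hN he (h5.resolve_left (not_or.2 ⟨not_not.2 htj, not_not.2 htN⟩))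
  · intro f m r i hr hfm hrm hrq hi him hrN
    obtain ⟨f, rfl⟩ : ∃ f', f = f' + 1 := by
      refine Nat.exists_eq_succ_of_ne_zero ?_
      rintro rfl
      omega
    obtain ⟨i, rfl⟩ : ∃ i', i = i' + 1 := ⟨i - 1, by omega⟩
    have hm : 0 < m := by
      refine Nat.pos_of_ne_zero ?_
      rintro rfl
      omega
    have hfj : f + 1 ∣ j := ⟨m, hfm.symm⟩
    have hmj : m ∣ j := ⟨f + 1, by rw [← hfm, mul_comm]⟩
    have h5 := allLt_spec (h4 r hr (hrm.trans hmj)).2 (show f < j from Nat.le_of_dvd hj hfj)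
    have e1 : j / (f + 1) = m := by rw [← hfm, Nat.mul_div_cancel_left _ (Nat.succ_pos f)]
    rw [Bool.or_eq_true, Bool.not_eq_true', ← Bool.not_eq_true, dv_iff, force_eq, e1, Bool.or_eq_true,
      Bool.or_eq_true, Bool.not_eq_true', Bool.not_eq_true', ← Bool.not_eq_true, ← Bool.not_eq_true, dv_iff,
      dv_iff] at h5
    have h6 := allLt_spec ((h5.resolve_left (not_not.2 hfj)).resolve_left (not_or.2 ⟨not_not.2 hrm, not_not.2 hrq⟩))
      (show i < 7 by have := lt_seven hr (him.trans (Nat.le_of_dvd hj hmj)) h2; omega)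
    rw [Bool.or_eq_true, Bool.or_eq_true, Nat.blt_eq, Bool.not_eq_true', ← Bool.not_eq_true, dv_iff,
      Bool.and_eq_true, Nat.ble_eq, Nat.ble_eq] at h6
    obtain ⟨h7, h8⟩ := h6.resolve_left (not_or.2 ⟨by omega, not_not.2 hrN⟩)
    exact ⟨h7, (hT.lk hr (by omega)).mono le_rfl le_rfl dvd_rfl (by omega)⟩

theorem tabLt_succ2 {n : ℕ} {T : LTab} {S : STab} (hL : chkL2 T S = true) (hS : chkS T S = true) (h : TabLt n T) :
    TabLt (n + 1) T := by
  intro x hx y hy hq G V _ _ _ _ _ _ hirr j hj hc hn hN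
  rw [chkL2, List.all_eq_true] at hL
  have h1 := hL x hx
  rw [List.all_eq_true] at h1
  have h2 := h1 y hy
  rw [linChk2, Bool.and_eq_true, Nat.blt_eq] at h2
  obtain ⟨j, rfl⟩ : ∃ j', j = j' + 1 := ⟨j - 1, by have := exp_pos hirr hc; omega⟩
  have h3 := allLt_spec h2.2 (show j < y.1 from hj)
  rw [Bool.or_eq_true, Bool.and_eq_true, Nat.beq_eq, Nat.ble_eq, force_eq, Bool.or_eq_true] at h3
  have hsol : Group.IsSolvable (Im G V) := range_solvable
  have hg : Nat.card (Im G V) ∣ Nat.gcd y.2.1 (glN x.1 (j + 1)) := Nat.dvd_gcd hN (card_im_dvd_gl hirr hq hc)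
  rcases h3 with ⟨rfl, h3⟩ | h3 | h3
  · exact (dln_prime hq G V hirr (by rw [hc, zero_add, pow_one])).mono h3
  · rw [solLk, List.any_eq_true] at h3
    obtain ⟨z, hz, h4⟩ := h3
    rw [Bool.and_eq_true, Bool.and_eq_true, Nat.ble_eq, Bool.or_eq_true, Nat.beq_eq, Nat.beq_eq, dv_iff] at h4
    rw [chkS, List.all_eq_true] at hS
    have h5 := sol_of_chk (Im G V) (fun q k N e hq' hok => chB_of_lin (h.ok hq' hok) (by omega)) (p := z.1) (by
      intro M hM hMp
      rw [eq_bot_iff]
      intro g hg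
      rcases h4.1.2 with h6 | h6
      · rw [h6] at hMp
        exact range_faithful g (irr_pcore hirr.range hq hc M hMp g hg)
      · rw [h6] at hMp
        obtain ⟨k, hk⟩ := hMp ⟨g, hg⟩
        rw [one_pow, pow_one] at hk
        exact congrArg Subtype.val hk) (hg.trans h4.2) (hS z hz)
    refine DL.of_range (DL.mono ?_ h4.1.1)
    intro g hg v
    rw [dser_top, h5, mem_bot] at hg
    rw [hg, one_smul]
  · refine DL.of_range (clif_of_chk2 hS (Im G V) V ?_ hirr.range range_faithful hq hc hg h2.1 h3)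
    intro x' hx' y' hy' hq'
    exact (h x' hx' y' hy' hq').mono (by omega) le_rfl dvd_rfl le_rfl

/-- **Soundness of the extended checker.** -/
theorem valid_of_chk2 {T : LTab} {S : STab} (hL : chkL2 T S = true) (hS : chkS T S = true) : Valid T := by
  intro n
  induction n with
  | zero =>
    intro x _ y _ _ G V _ _ _ _ _ _ _ j _ _ h
    omega
  | succ n ih => exact tabLt_succ2 hL hS ih

end Cfsg.Agent.DS.Ord
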